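import Cfsg.Agent.H959.T5.Tools
import Cfsg.Agent.H180.KM11
import Cfsg.Agent.NotCT.Orders

/-!
# S3854, the row `M11` (helper567)

The Sylow subgroups for `p = 5, 11` have prime order, and `M11` has elements of order 8.
-/

set_option autoImplicit false

namespace Cfsg.Agent.H567.NT

open Subgroup Cfsg
open Cfsg.Agent.H959.T5
open Cfsg.Agent.H301.SY

theorem noTE_m11 {K : Type*} [Group K] [Finite K] [IsSimpleGroup K] (h : Cfsg.Spor.IsoM11 K) {p : ℕ} [Fact p.Prime]
    (hp : 5 ≤ p) (hb : Cfsg.Agent.H301.SY.Blk p K) (_hO : Cfsg.Agent.H301.SY.ThO p K) :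
    Cfsg.Agent.H959.T5.NoTE p K := by
  have hn := NotCT.Orders.m11 h
  have hpp : p.Prime := Fact.out
  by_cases hd : p ∣ Nat.card K
  · have h1 : p = 5 ∨ p = 11 := by
      rw [hn, show 7920 = 2 ^ 4 * 3 ^ 2 * 5 * 11 by norm_num, hpp.dvd_mul, hpp.dvd_mul, hpp.dvd_mul] at hd
      rcases hd with ((hd | hd) | hd) | hd
      · have := (Nat.prime_dvd_prime_iff_eq hpp Nat.prime_two).1 (hpp.dvd_of_dvd_pow hd)
        omega
      · have := (Nat.prime_dvd_prime_iff_eq hpp Nat.prime_three).1 (hpp.dvd_of_dvd_pow hd)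
        omega
      · exact Or.inl ((Nat.prime_dvd_prime_iff_eq hpp (by norm_num)).1 hd)
      · exact Or.inr ((Nat.prime_dvd_prime_iff_eq hpp (by norm_num)).1 hd)
    obtain ⟨y, hy⟩ := H180.KM11.exists_eight h
    refine NoTE.of_orderOf (k := 3) (fun P => cyclic_of_card (p := p) ?_ P) hb (by omega) (y := y) hy ?_
    · rw [hn]
      rcases h1 with rfl | rfl <;> norm_num
    · rcases h1 with rfl | rfl <;> norm_num
  · intro x hx _ _
    exact hd (hx ▸ orderOf_dvd_natCard x)

end Cfsg.Agent.H567.NT
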